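import Mathlib
import Cfsg.Agent.SL2.SylowTwoNormalizer
import Cfsg.Agent.SL2.PSL
import Cfsg.Agent.SL2.Tori

/-!
Numbers of Sylow subgroups under homomorphisms, and in `PSL(2,17)`.
-/

set_option autoImplicit false

namespace CfsgLib.SylSeventeen

open Matrix

section General

theorem card_eq_index {G : Type*} [Group G] [Finite G] {p : ℕ} [Fact p.Prime] (P : Sylow p G) :
    Nat.card (Sylow p G) = (Subgroup.normalizer ((P : Subgroup G) : Set G)).index :=
  P.card_eq_index_normalizer

theorem smul_eq_iff {G : Type*} [Group G] {p : ℕ} {g : G} {P : Sylow p G} :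
    g • P = P ↔ g ∈ Subgroup.normalizer ((P : Subgroup G) : Set G) :=
  Sylow.smul_eq_iff_mem_normalizer

open scoped Pointwise

variable {G X : Type*} [Group G] [Finite G] [Group X] [Finite X] {p : ℕ} [Fact p.Prime]

theorem le_sylow_of_normalizes {Q : Subgroup G} (hQ : IsPGroup p Q) (R : Sylow p G)
    (h : Q ≤ Subgroup.normalizer ((R : Subgroup G) : Set G)) : Q ≤ (R : Subgroup G) := by
  have h1 : Q ⊓ Subgroup.normalizer ((R : Subgroup G) : Set G) = Q ⊓ (R : Subgroup G) :=
    IsPGroup.inf_normalizer_sylow hQ R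
  rw [inf_eq_left.2 h] at h1
  exact inf_eq_left.1 h1.symm

theorem eq_of_le_normalizer (R S : Sylow p G)
    (h : (R : Subgroup G) ≤ Subgroup.normalizer ((S : Subgroup G) : Set G)) : R = S :=
  Sylow.ext (le_antisymm (le_sylow_of_normalizes R.isPGroup' S h)
    (R.3 S.isPGroup' (le_sylow_of_normalizes R.isPGroup' S h)).le)

theorem normalizer_le_comap (f : G →* X) (hf : Function.Surjective f) (R : Sylow p G) :
    Subgroup.normalizer ((R : Subgroup G) : Set G) ≤
      (Subgroup.normalizer (((R.mapSurjective hf) : Subgroup X) : Set X)).comap f := by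
  intro g hg
  rw [Subgroup.mem_comap, Sylow.coe_mapSurjective]
  exact Subgroup.le_normalizer_map f (Subgroup.mem_map_of_mem f hg)

theorem ker_le_comap (f : G →* X) (hf : Function.Surjective f) (R : Sylow p G) :
    f.ker ≤ (Subgroup.normalizer (((R.mapSurjective hf) : Subgroup X) : Set X)).comap f := by
  intro g hg
  rw [Subgroup.mem_comap, MonoidHom.mem_ker.1 hg]
  exact one_mem _

theorem index_comap_normalizer (f : G →* X) (hf : Function.Surjective f) (R : Sylow p G) :
    ((Subgroup.normalizer (((R.mapSurjective hf) : Subgroup X) : Set X)).comap f).index =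
      Nat.card (Sylow p X) := by
  rw [Subgroup.index_comap_of_surjective _ hf, ← card_eq_index]

/-- The Sylow number of an image divides the Sylow number. -/
theorem card_sylow_image_dvd (f : G →* X) (hf : Function.Surjective f) :
    Nat.card (Sylow p X) ∣ Nat.card (Sylow p G) := by
  obtain ⟨R⟩ : Nonempty (Sylow p G) := inferInstance
  rw [← index_comap_normalizer f hf R, card_eq_index R]
  exact Subgroup.index_dvd_of_le (normalizer_le_comap f hf R)

/-- If the Sylow number does not drop, the kernel normalises every Sylow subgroup. -/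
theorem ker_le_normalizer (f : G →* X) (hf : Function.Surjective f)
    (h : Nat.card (Sylow p X) = Nat.card (Sylow p G)) (R : Sylow p G) :
    f.ker ≤ Subgroup.normalizer ((R : Subgroup G) : Set G) := by
  have hle := normalizer_le_comap f hf R
  have h1 : (Subgroup.normalizer ((R : Subgroup G) : Set G)).relIndex
      ((Subgroup.normalizer (((R.mapSurjective hf) : Subgroup X) : Set X)).comap f) = 1 := by
    have h2 := Subgroup.relIndex_mul_index hle
    rw [index_comap_normalizer f hf R, h, card_eq_index R] at h2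
    exact mul_eq_right₀ Subgroup.index_ne_zero_of_finite |>.1 h2
  exact (ker_le_comap f hf R).trans (Subgroup.relIndex_eq_one.1 h1)

/-- A kernel normalising the Sylow subgroups preserves their number. -/
theorem card_sylow_image_eq (f : G →* X) (hf : Function.Surjective f) (R : Sylow p G)
    (hk : f.ker ≤ Subgroup.normalizer ((R : Subgroup G) : Set G)) :
    Nat.card (Sylow p X) = Nat.card (Sylow p G) := by
  rw [← index_comap_normalizer f hf R, card_eq_index R]
  congr 1
  refine le_antisymm ?_ (normalizer_le_comap f hf R)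
  intro g hg
  rw [← smul_eq_iff]
  refine eq_of_le_normalizer _ _ ?_
  intro x hx
  rw [Subgroup.mem_comap, Sylow.coe_mapSurjective] at hg
  have h1 : x ∈ MulAut.conj g • (R : Subgroup G) := by rwa [← Sylow.pointwise_smul_def]
  rw [Subgroup.mem_pointwise_smul_iff_inv_smul_mem, MulAut.smul_def, MulAut.conj_inv_apply] at h1
  have h2 : f (g⁻¹ * x * g) ∈ (R : Subgroup G).map f := Subgroup.mem_map_of_mem f h1
  have h3 := (Subgroup.mem_normalizer_iff.1 hg _).1 h2
  rw [show f g * f (g⁻¹ * x * g) * (f g)⁻¹ = f x by simp [mul_assoc]] at h3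
  obtain ⟨r, hr, hrx⟩ := h3
  have h4 : r⁻¹ * x ∈ f.ker := by rw [MonoidHom.mem_ker, map_mul, map_inv, hrx, inv_mul_cancel]
  have h5 := Subgroup.mul_mem _ (Subgroup.le_normalizer hr) (hk h4)
  rwa [mul_inv_cancel_left] at h5

/-- Sylow numbers of subgroups do not exceed those of the group. -/
theorem card_sylow_le_of_injective (f : X →* G) (hf : Function.Injective f) :
    Nat.card (Sylow p X) ≤ Nat.card (Sylow p G) := by
  have h := fun R : Sylow p X => R.exists_comap_eq_of_injective hf
  choose φ hφ using h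
  refine Nat.card_le_card_of_injective φ fun R S hRS => Sylow.ext ?_
  rw [← hφ R, ← hφ S, hRS]

end General

section PSL

open scoped Pointwise

variable {F : Type*} [Field F] [Fintype F]

theorem two_ne_zero' (hF : Fintype.card F = 17) : (2 : F) ≠ 0 := by
  intro h
  have : CharP F 2 := CharTwo.of_one_ne_zero_of_two_eq_zero one_ne_zero h
  have := FiniteField.even_card_iff_char_two.mp (ringChar.eq F 2)
  omega

theorem card_SL_seventeen (hF : Fintype.card F = 17) : Nat.card (SpecialLinearGroup (Fin 2) F) = 4896 := by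
  rw [CfsgLib.SL2.card_SL2, hF]; norm_num

theorem card_PSL_seventeen (hF : Fintype.card F = 17) :
    Nat.card (ProjectiveSpecialLinearGroup (Fin 2) F) = 2448 := by
  have h := CfsgLib.SL2.card_PSL_mul F
  rw [CfsgLib.SL2.card_center, CfsgLib.SL2.card_sq_eq_one_odd (two_ne_zero' hF), hF] at h
  omega

theorem card_sylow_two_SL (hF : Fintype.card F = 17) :
    Nat.card (Sylow 2 (SpecialLinearGroup (Fin 2) F)) = 153 := by
  haveI : Fact (Nat.Prime 2) := ⟨Nat.prime_two⟩
  obtain ⟨P⟩ : Nonempty (Sylow 2 (SpecialLinearGroup (Fin 2) F)) := inferInstance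
  have hq : Nat.card F = 17 := by rw [Nat.card_eq_fintype_card, hF]
  obtain ⟨d⟩ := CfsgLib.SL2.exists_sylowTwoData (by rw [hq]; decide) P
  have hk : 2 ≤ d.k := d.card_mod.2 (Or.inl (by rw [hq]))
  have hN := d.normalizer_eq (two_ne_zero' hF) hk
  rw [card_eq_index P, hN]
  have hc : Nat.card (P : Subgroup (SpecialLinearGroup (Fin 2) F)) = 32 := by
    rw [P.card_eq_multiplicity, card_SL_seventeen hF,
      show (4896 : ℕ) = 2 ^ 5 * 153 by norm_num, Nat.factorization_mul (by norm_num) (by norm_num),
      Nat.prime_two.factorization_pow, Finsupp.add_apply, Finsupp.single_eq_same,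
      Nat.factorization_eq_zero_of_not_dvd (by norm_num : ¬ 2 ∣ 153)]
    norm_num
  have h := Subgroup.index_mul_card (P : Subgroup (SpecialLinearGroup (Fin 2) F))
  rw [hc, card_SL_seventeen hF] at h
  omega

theorem tr_eq_neg_one {x : SpecialLinearGroup (Fin 2) F} (hx : x ^ 3 = 1)
    (hxc : x ∉ Subgroup.center (SpecialLinearGroup (Fin 2) F)) : CfsgLib.SL2.tr x = -1 := by
  set t := CfsgLib.SL2.tr x with ht
  have h3 : x.1 * (x.1 * x.1) = 1 := by
    have := congrArg Subtype.val hx
    simpa [pow_succ, mul_assoc] using this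
  have e : (t ^ 2 - 1) • x.1 = (1 + t) • (1 : Matrix (Fin 2) (Fin 2) F) := by
    rw [CfsgLib.SL2.sq_eq x, mul_sub, mul_one, Matrix.mul_smul, CfsgLib.SL2.sq_eq x, ← ht] at h3
    rw [smul_sub, smul_smul] at h3
    rw [sub_smul, one_smul, add_smul, one_smul, pow_two]
    linear_combination (norm := abel) h3
  rcases eq_or_ne (t ^ 2 - 1) 0 with h | h
  · rw [h, zero_smul] at e
    have e' := congrFun (congrFun e 0) 0
    simp at e'
    linear_combination -e'
  · exfalso
    refine hxc (CfsgLib.SL2.mem_center_iff x |>.2 (CfsgLib.SL2.eq_one_or_neg_one_of_scalar x ?_ ?_ ?_))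
    · have e' := congrFun (congrFun e 0) 1
      simpa [h] using e'
    · have e' := congrFun (congrFun e 1) 0
      simpa [h] using e'
    · have e0 := congrFun (congrFun e 0) 0
      have e1 := congrFun (congrFun e 1) 1
      simp at e0 e1
      exact mul_left_cancel₀ h (e0.trans e1.symm)

theorem card_sylow_three_SL (hF : Fintype.card F = 17) :
    Nat.card (Sylow 3 (SpecialLinearGroup (Fin 2) F)) = 136 := by
  haveI : Fact (Nat.Prime 3) := ⟨Nat.prime_three⟩
  have h2 := two_ne_zero' hF
  obtain ⟨R⟩ : Nonempty (Sylow 3 (SpecialLinearGroup (Fin 2) F)) := inferInstance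
  have hc : Nat.card (R : Subgroup (SpecialLinearGroup (Fin 2) F)) = 9 := by
    rw [R.card_eq_multiplicity, card_SL_seventeen hF,
      show (4896 : ℕ) = 3 ^ 2 * 544 by norm_num, Nat.factorization_mul (by norm_num) (by norm_num),
      Nat.prime_three.factorization_pow, Finsupp.add_apply, Finsupp.single_eq_same,
      Nat.factorization_eq_zero_of_not_dvd (by norm_num : ¬ 3 ∣ 544)]
    norm_num
  obtain ⟨x, hx⟩ := exists_prime_orderOf_dvd_card' (G := (R : Subgroup (SpecialLinearGroup (Fin 2) F))) 3
    (by rw [hc]; decide)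
  have hx3 : orderOf (x : SpecialLinearGroup (Fin 2) F) = 3 := by rw [Subgroup.orderOf_coe, hx]
  have hxc : (x : SpecialLinearGroup (Fin 2) F) ∉ Subgroup.center (SpecialLinearGroup (Fin 2) F) := by
    intro h
    have h1 := (CfsgLib.SL2.isCentral_sq h2).mpr h
    have := orderOf_dvd_of_pow_eq_one (x := (x : SpecialLinearGroup (Fin 2) F)) (n := 2) (by rw [sq]; exact h1)
    rw [hx3] at this
    norm_num at this
  have htr := tr_eq_neg_one (orderOf_dvd_iff_pow_eq_one.1 hx3.dvd) hxc
  have h30 : (3 : F) ≠ 0 := by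
    intro h
    have hr : (ringChar F) ∣ 3 := (ringChar.spec F 3).1 (by exact_mod_cast h)
    obtain ⟨n, hp, hn⟩ := FiniteField.card F (ringChar F)
    rw [(Nat.prime_dvd_prime_iff_eq hp Nat.prime_three).1 hr, hF] at hn
    have : 3 ∣ 17 := hn ▸ dvd_pow_self 3 n.ne_zero
    norm_num at this
  have hell : ∀ r : F, r * r - CfsgLib.SL2.tr (x : SpecialLinearGroup (Fin 2) F) * r + 1 ≠ 0 := by
    intro r hr
    rw [htr] at hr
    have hr3 : r ^ 3 = 1 := by linear_combination (r - 1) * hr
    have hr1 : r ≠ 1 := by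
      rintro rfl
      exact h30 (by linear_combination hr)
    have hr0 : r ≠ 0 := by
      rintro rfl
      simp at hr3
    have h16 : r ^ 16 = 1 := by
      have := FiniteField.pow_card_sub_one_eq_one r hr0
      rwa [hF] at this
    apply hr1
    calc r = r ^ 16 := by rw [show (16 : ℕ) = 3 * 5 + 1 from rfl, pow_succ, pow_mul, hr3, one_pow, one_mul]
      _ = 1 := h16
  have ht4 : CfsgLib.SL2.tr (x : SpecialLinearGroup (Fin 2) F) ^ 2 ≠ 4 := by
    rw [htr]
    exact fun h => h30 (by linear_combination -h)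
  set C := Subgroup.centralizer ({(x : SpecialLinearGroup (Fin 2) F)} : Set (SpecialLinearGroup (Fin 2) F))
    with hC
  have hC18 : Nat.card C = 18 := by
    rw [hC, CfsgLib.SL2.card_centralizer_elliptic hell, Nat.card_eq_fintype_card, hF]
  haveI := CfsgLib.SL2.isMulCommutative_centralizer hxc
  have hR : IsMulCommutative (R : Subgroup (SpecialLinearGroup (Fin 2) F)) :=
    ⟨⟨fun a b => (IsPGroup.commGroupOfCardEqPrimeSq (p := 3) (by rw [hc]; rfl)).mul_comm a b⟩⟩
  have hRC : (R : Subgroup (SpecialLinearGroup (Fin 2) F)) ≤ C := fun r hr =>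
    Subgroup.mem_centralizer_singleton_iff.mpr (congrArg Subtype.val (hR.is_comm.comm ⟨r, hr⟩ x))
  have hCN : C ≤ Subgroup.normalizer ((R : Subgroup (SpecialLinearGroup (Fin 2) F)) : Set _) := by
    intro c hcC
    rw [Subgroup.mem_normalizer_iff]
    intro r
    constructor
    · intro hr
      have h := CfsgLib.SL2.centralizer_comm hxc (Subgroup.mem_centralizer_singleton_iff.mp hcC)
        (Subgroup.mem_centralizer_singleton_iff.mp (hRC hr))
      rwa [h, mul_inv_cancel_right]
    · intro hr
      have h := CfsgLib.SL2.centralizer_comm hxc (Subgroup.mem_centralizer_singleton_iff.mp hcC)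
        (Subgroup.mem_centralizer_singleton_iff.mp (hRC hr))
      have h' : c * r * c⁻¹ = r := by
        calc c * r * c⁻¹ = c⁻¹ * (c * (c * r * c⁻¹)) := by group
          _ = c⁻¹ * ((c * r * c⁻¹) * c) := by rw [h]
          _ = r := by group
      rwa [h'] at hr
  have hN : Subgroup.normalizer ((R : Subgroup (SpecialLinearGroup (Fin 2) F)) : Set _) =
      Subgroup.normalizer (C : Set (SpecialLinearGroup (Fin 2) F)) := by
    refine le_antisymm (fun g hg => ?_) (fun g hg => ?_)
    · rw [CfsgLib.SL2.mem_normalizer_centralizer_iff ht4]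
      have hmem : g * x * g⁻¹ ∈ C := hRC ((Subgroup.mem_normalizer_iff.1 hg _).1 x.2)
      exact CfsgLib.SL2.eq_or_eq_inv ht4 (Subgroup.mem_centralizer_singleton_iff.mp hmem)
        (CfsgLib.SL2.tr_eq_of_isConj (isConj_iff.mpr ⟨g, rfl⟩)).symm
    · rw [← smul_eq_iff]
      refine eq_of_le_normalizer _ _ (le_trans ?_ hCN)
      intro y hy
      change y ∈ MulAut.conj g • (R : Subgroup (SpecialLinearGroup (Fin 2) F)) at hy
      rw [Subgroup.mem_pointwise_smul_iff_inv_smul_mem, MulAut.smul_def, MulAut.conj_inv_apply] at hy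
      have h := (Subgroup.mem_normalizer_iff.1 hg _).1 (hRC hy)
      rwa [show g * (g⁻¹ * y * g) * g⁻¹ = y by group] at h
  have h36 : Nat.card ↥(Subgroup.normalizer (C : Set (SpecialLinearGroup (Fin 2) F))) = 36 := by
    rw [hC, CfsgLib.SL2.card_normalizer_centralizer ht4, ← hC, hC18]
  have h := Subgroup.index_mul_card (Subgroup.normalizer (C : Set (SpecialLinearGroup (Fin 2) F)))
  rw [h36, card_SL_seventeen hF] at h
  rw [card_eq_index R, hN]
  omega

theorem card_sylow_PSL (hF : Fintype.card F = 17) :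
    Nat.card (Sylow 2 (ProjectiveSpecialLinearGroup (Fin 2) F)) = 153 ∧
      Nat.card (Sylow 3 (ProjectiveSpecialLinearGroup (Fin 2) F)) = 136 := by
  haveI : Fact (Nat.Prime 2) := ⟨Nat.prime_two⟩
  haveI : Fact (Nat.Prime 3) := ⟨Nat.prime_three⟩
  have hk : ∀ H : Subgroup (SpecialLinearGroup (Fin 2) F),
      (CfsgLib.SL2.proj (F := F)).ker ≤ Subgroup.normalizer ((H : Subgroup _) : Set (SpecialLinearGroup (Fin 2) F)) := by
    intro H
    refine le_trans (le_of_eq ?_) (Subgroup.center_le_normalizer _)
    exact QuotientGroup.ker_mk' _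
  obtain ⟨P⟩ : Nonempty (Sylow 2 (SpecialLinearGroup (Fin 2) F)) := inferInstance
  obtain ⟨R⟩ : Nonempty (Sylow 3 (SpecialLinearGroup (Fin 2) F)) := inferInstance
  exact ⟨(card_sylow_image_eq CfsgLib.SL2.proj CfsgLib.SL2.proj_surjective P (hk _)).trans (card_sylow_two_SL hF),
    (card_sylow_image_eq CfsgLib.SL2.proj CfsgLib.SL2.proj_surjective R (hk _)).trans (card_sylow_three_SL hF)⟩

end PSL

end CfsgLib.SylSeventeen
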