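import Mathlib
import Cfsg.Agent.SylSeventeen.Counts

/-!
Normal subgroups normalising all Sylow subgroups.
-/

set_option autoImplicit false

namespace CfsgLib.SylSeventeen

open scoped Pointwise

variable {G : Type*} [Group G] [Finite G]

/-- The `s`-part of a Sylow number of a normal subgroup with normal Sylow `s`-subgroup. -/
theorem part_modEq_one (K : Subgroup G) [hKn : K.Normal] {r s v : ℕ} [Fact r.Prime] [Fact s.Prime]
    (hsner : s ≠ r) (Q : Sylow r G) (hQK : (Q : Subgroup G) ≤ K) (R : Sylow s G)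
    (hsr : ∀ R : Sylow s G, K ≤ Subgroup.normalizer ((R : Subgroup G) : Set G))
    (hv : (Nat.card (Sylow r G)).factorization s = v) : s ^ v ≡ 1 [MOD r] := by
  classical
  have hr : r.Prime := Fact.out
  have hsp : s.Prime := Fact.out
  -- `A` is the Sylow `s`-subgroup of the kernel
  set A : Subgroup G := K ⊓ (R : Subgroup G) with hA
  have hAle : ∀ T : Subgroup G, IsPGroup s T → T ≤ K → T ≤ A := fun T hT hTK =>
    le_inf hTK (CfsgLib.SylSeventeen.le_sylow_of_normalizes hT R (hTK.trans (hsr R)))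
  have hAn : A.Normal := by
    refine ⟨fun x hx g => ?_⟩
    have hpg : IsPGroup s (A.map (MulAut.conj g).toMonoidHom) :=
      ((R.isPGroup'.to_le inf_le_right : IsPGroup s A)).map _
    refine hAle _ hpg ?_ ⟨x, hx, rfl⟩
    rintro z ⟨w, hw, rfl⟩
    exact hKn.conj_mem w hw.1 g
  have hApg : IsPGroup s A := R.isPGroup'.to_le inf_le_right
  -- kernel index computations
  have hnK : Nat.card (Sylow r G) = (Subgroup.normalizer ((Q : Subgroup G) : Set G) ⊓ K).relIndex K := by
    rw [Subgroup.inf_relIndex_right, CfsgLib.SylSeventeen.card_eq_index Q]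
    have htop : Subgroup.normalizer ((Q : Subgroup G) : Set G) ⊔ K = ⊤ := by
      exact Sylow.normalizer_sup_eq_top' Q hQK
    set N := Subgroup.normalizer ((Q : Subgroup G) : Set G) with hN
    have h1 : K.relIndex N = K.index := by
      rw [← Subgroup.relIndex_sup_right (H := N) (K := K), htop, Subgroup.relIndex_top_right]
    have h2 := Subgroup.relIndex_mul_index (inf_le_left : N ⊓ K ≤ N)
    rw [Subgroup.inf_relIndex_left] at h2
    have h3 := Subgroup.relIndex_mul_index (inf_le_right : N ⊓ K ≤ K)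
    rw [Subgroup.inf_relIndex_right, ← h2, h1, mul_comm K.index] at h3
    exact (mul_right_cancel₀ Subgroup.index_ne_zero_of_finite h3).symm
  set C : Subgroup G := Subgroup.normalizer ((Q : Subgroup G) : Set G) ⊓ A with hC
  have hCN : C ≤ Subgroup.normalizer ((Q : Subgroup G) : Set G) ⊓ K := inf_le_inf_left _ inf_le_left
  have hAK : A ≤ K := inf_le_left
  have hmul : Nat.card ↥(Subgroup.normalizer ((Q : Subgroup G) : Set G) ⊓ K) * Nat.card (Sylow r G) = Nat.card K := by
    rw [hnK, Subgroup.relIndex, Nat.card_congr (Subgroup.subgroupOfEquivOfLe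
      (inf_le_right : Subgroup.normalizer ((Q : Subgroup G) : Set G) ⊓ K ≤ K)).symm.toEquiv]
    exact Subgroup.card_mul_index _
  have hfac : ∀ (M B : Subgroup G), B ≤ M → IsPGroup s B → (∀ T : Subgroup G, IsPGroup s T → T ≤ M → T ≤ B) →
      Nat.card B = s ^ (Nat.card M).factorization s := by
    intro M B hBM hB hmax
    obtain ⟨S⟩ : Nonempty (Sylow s ↥M) := inferInstance
    have h1 := hmax ((S : Subgroup ↥M).map M.subtype) (S.isPGroup'.map _) (Subgroup.map_subtype_le _)
    have h2 : Nat.card (S : Subgroup ↥M) ≤ Nat.card B := by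
      rw [← Subgroup.card_map_of_injective M.subtype_injective]
      exact Subgroup.card_le_of_le h1
    rw [S.card_eq_multiplicity] at h2
    obtain ⟨m, hm⟩ := IsPGroup.iff_card.1 hB
    have h3 : s ^ m ∣ Nat.card M := hm ▸ Subgroup.card_dvd_of_le hBM
    have h4 := (hsp.pow_dvd_iff_le_factorization Nat.card_pos.ne').1 h3
    rw [hm] at h2 ⊢
    have h5 := (Nat.pow_le_pow_iff_right hsp.one_lt).1 h2
    rw [le_antisymm h4 h5]
  have hcA := hfac K A hAK hApg fun T hT hTK => hAle T hT hTK
  have hcC := hfac (Subgroup.normalizer ((Q : Subgroup G) : Set G) ⊓ K) C hCN (hApg.to_le inf_le_right)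
    fun T hT hTK => le_inf (hTK.trans inf_le_left) (hAle T hT (hTK.trans inf_le_right))
  have hAC : Nat.card A = s ^ v * Nat.card C := by
    rw [hcA, hcC, ← hmul, Nat.factorization_mul Nat.card_pos.ne' Nat.card_pos.ne', Finsupp.add_apply, hv,
      pow_add, mul_comm]
  -- fixed points
  haveI := hAn
  let g : ↥(Q : Subgroup G) →* MulAut ↥A := MulAut.conjNormal.comp (Q : Subgroup G).subtype
  letI : MulAction ↥(Q : Subgroup G) ↥A := MulAction.compHom _ g
  have hfix := Q.isPGroup'.card_modEq_card_fixedPoints ↥A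
  have hcardfix : Nat.card (MulAction.fixedPoints ↥(Q : Subgroup G) ↥A) = Nat.card C := by
    refine Nat.card_congr ⟨fun z => ⟨((z : ↥A) : G), ?_, (z : ↥A).2⟩,
      fun z => ⟨⟨(z : G), z.2.2⟩, ?_⟩, fun z => rfl, fun z => rfl⟩
    · refine Subgroup.centralizer_le_normalizer ((Q : Subgroup G) : Set G) ?_
      rintro q hq
      have h := congrArg Subtype.val (z.2 ⟨q, hq⟩)
      have h' : q * ((z : ↥A) : G) * q⁻¹ = ((z : ↥A) : G) := h
      exact mul_inv_eq_iff_eq_mul.1 h'
    · rintro ⟨q, hq⟩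
      refine Subtype.ext ?_
      show q * (z : G) * q⁻¹ = (z : G)
      have h1 : (z : G)⁻¹ * q * (z : G) ∈ (Q : Subgroup G) :=
        (Subgroup.mem_normalizer_iff''.1 z.2.1 q).1 hq
      have h2 : q⁻¹ * ((z : G)⁻¹ * q * (z : G)) ∈ A ⊓ (Q : Subgroup G) := by
        refine ⟨?_, (Q : Subgroup G).mul_mem ((Q : Subgroup G).inv_mem hq) h1⟩
        have h3 := hAn.conj_mem _ (A.inv_mem z.2.2) q⁻¹
        rw [inv_inv] at h3
        have h4 := A.mul_mem h3 z.2.2
        simpa [mul_assoc] using h4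
      have hdis : A ⊓ (Q : Subgroup G) = ⊥ := (IsPGroup.disjoint_of_ne s r hsner _ _ hApg Q.isPGroup').eq_bot
      rw [hdis, Subgroup.mem_bot, inv_mul_eq_one] at h2
      have h5 : (z : G) * q = q * (z : G) := by
        calc (z : G) * q = (z : G) * ((z : G)⁻¹ * q * (z : G)) := congrArg ((z : G) * ·) h2
          _ = q * (z : G) := by group
      rw [← h5, mul_inv_cancel_right]
  rw [hcardfix, hAC] at hfix
  have hco : Nat.Coprime r (Nat.card C) := by
    rw [hcC]
    exact Nat.Coprime.pow_right _ ((Nat.coprime_primes hr hsp).2 hsner.symm)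
  exact Nat.ModEq.cancel_right_of_coprime hco (by rw [one_mul]; exact hfix)

/-- A normal subgroup normalising all Sylow subgroups is trivial when the centre is. -/
theorem eq_bot_of_normalizes_all (hZ : Subgroup.center G = ⊥) (K : Subgroup G) [hKn : K.Normal]
    (hKall : ∀ r : ℕ, r.Prime → r ∣ Nat.card G → ∀ R : Sylow r G, K ≤ Subgroup.normalizer ((R : Subgroup G) : Set G)) :
    K = ⊥ := by
  classical
  by_contra hne
  obtain ⟨r, hr, hrd⟩ := Nat.exists_prime_and_dvd (n := Nat.card K) (fun h => hne (Subgroup.card_eq_one.1 h))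
  haveI : Fact r.Prime := ⟨hr⟩
  have hrG : r ∣ Nat.card G := hrd.trans (Subgroup.card_subgroup_dvd_card _)
  obtain ⟨R⟩ : Nonempty (Sylow r G) := inferInstance
  set A : Subgroup G := K ⊓ (R : Subgroup G) with hA
  have hApg : IsPGroup r A := R.isPGroup'.to_le inf_le_right
  have hAle : ∀ T : Subgroup G, IsPGroup r T → T ≤ K → T ≤ A := fun T hT hTK =>
    le_inf hTK (CfsgLib.SylSeventeen.le_sylow_of_normalizes hT R (hTK.trans (hKall r hr hrG R)))
  haveI hAn : A.Normal := by
    refine ⟨fun x hx g => hAle _ (hApg.map (MulAut.conj g).toMonoidHom) ?_ ⟨x, hx, rfl⟩⟩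
    rintro z ⟨w, hw, rfl⟩
    exact hKn.conj_mem w hw.1 g
  have hA1 : A ≠ ⊥ := by
    intro h
    obtain ⟨x, hx⟩ := exists_prime_orderOf_dvd_card' (G := K) r hrd
    have hx' : Subgroup.zpowers (x : G) ≤ A := hAle _
      (IsPGroup.of_card (n := 1) (by rw [Nat.card_zpowers, Subgroup.orderOf_coe, hx, pow_one]))
      (Subgroup.zpowers_le.2 x.2)
    rw [h, le_bot_iff, Subgroup.zpowers_eq_bot] at hx'
    rw [show x = 1 from Subtype.ext hx', orderOf_one] at hx
    exact hr.ne_one hx.symm
  -- a central element of the Sylow subgroup inside it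
  let g : ↥(R : Subgroup G) →* MulAut ↥A := MulAut.conjNormal.comp (R : Subgroup G).subtype
  letI : MulAction ↥(R : Subgroup G) ↥A := MulAction.compHom _ g
  have hdvd : r ∣ Nat.card A := by
    obtain ⟨m, hm⟩ := IsPGroup.iff_card.1 hApg
    rcases Nat.eq_zero_or_pos m with rfl | hm0
    · exact absurd (Subgroup.card_eq_one.1 (by simpa using hm)) hA1
    · rw [hm]; exact dvd_pow_self r (by omega)
  have hone : (1 : ↥A) ∈ MulAction.fixedPoints ↥(R : Subgroup G) ↥A := fun q => map_one (g q)
  obtain ⟨z, hz, hz1⟩ := R.isPGroup'.exists_fixed_point_of_prime_dvd_card_of_fixed_point ↥A hdvd hone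
  have hcard : ∀ s : ℕ, s.Prime → s ∣ Nat.card G →
      ∃ S : Sylow s G, (S : Subgroup G) ≤ Subgroup.centralizer ({(z : G)} : Set G) := by
    intro s hs hsd
    haveI : Fact s.Prime := ⟨hs⟩
    rcases eq_or_ne s r with rfl | hne
    · refine ⟨R, fun q hq => Subgroup.mem_centralizer_singleton_iff.2 ?_⟩
      have h' : q * (z : G) * q⁻¹ = (z : G) := congrArg Subtype.val (hz ⟨q, hq⟩)
      exact mul_inv_eq_iff_eq_mul.1 h'
    · obtain ⟨S⟩ : Nonempty (Sylow s G) := inferInstance
      refine ⟨S, fun q hq => Subgroup.mem_centralizer_singleton_iff.2 ?_⟩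
      have hzN := hKall s hs hsd S z.2.1
      have h1 : q * (z : G) * q⁻¹ * (z : G)⁻¹ ∈ A ⊓ (S : Subgroup G) := by
        refine ⟨A.mul_mem (hAn.conj_mem _ z.2 q) (A.inv_mem z.2), ?_⟩
        have h2 := (Subgroup.mem_normalizer_iff.1 hzN q⁻¹).1 ((S : Subgroup G).inv_mem hq)
        have h3 := (S : Subgroup G).mul_mem hq h2
        simp only [mul_assoc] at h3 ⊢
        exact h3
      rw [(IsPGroup.disjoint_of_ne r s hne.symm _ _ hApg S.isPGroup').eq_bot, Subgroup.mem_bot,
        mul_inv_eq_one, mul_inv_eq_iff_eq_mul] at h1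
      exact h1
  have htop : Subgroup.centralizer ({(z : G)} : Set G) = ⊤ := by
    apply Subgroup.eq_top_of_card_eq
    refine Nat.dvd_antisymm (Subgroup.card_subgroup_dvd_card _) ?_
    refine (Nat.factorization_prime_le_iff_dvd Nat.card_pos.ne' Nat.card_pos.ne').1 fun s hs => ?_
    by_cases hsd : s ∣ Nat.card G
    · haveI : Fact s.Prime := ⟨hs⟩
      obtain ⟨S, hS⟩ := hcard s hs hsd
      rw [← hs.pow_dvd_iff_le_factorization Nat.card_pos.ne', ← S.card_eq_multiplicity]
      exact Subgroup.card_dvd_of_le hS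
    · rw [Nat.factorization_eq_zero_of_not_dvd hsd]
      exact Nat.zero_le _
  refine hz1 ?_
  have hzc : (z : G) ∈ Subgroup.center G := Subgroup.mem_center_iff.2 fun q =>
    Subgroup.mem_centralizer_singleton_iff.1 (htop ▸ Subgroup.mem_top q)
  rw [hZ, Subgroup.mem_bot] at hzc
  exact Subtype.ext hzc.symm

end CfsgLib.SylSeventeen
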